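import Groth.Prelude.Def_Models
import Groth.Prelude.Def_Curve
import Groth.Agent.CurvesB.NodalDescent
import Groth.Agent.CurvesB.NodeSch2
import Mathlib.RingTheory.DiscreteValuationRing.Basic
import Mathlib.AlgebraicGeometry.ResidueField

/-!
Nodal families over a discrete valuation ring can be recognised on one geometric special fibre.

`isNodalFibre_of_isPullback`: fibre conditions of `Curv2.IsNodalFamily` at a point `s` follow from the
same conditions on any pullback along `Spec K ⟶ S` hitting `s`.

`isNodalFamily_of_geometric`: a model of a smooth proper curve with a geometric special fibre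
(over some field extension) at worst nodal of pure dimension one is a nodal family.
-/

set_option autoImplicit false
universe u
open CategoryTheory CategoryTheory.Limits AlgebraicGeometry Topology Curv2

namespace Groth.Agent.Models.H112.NodalFam

/-- The fibre conditions at `s` may be checked on the pullback along one `Spec K ⟶ S` hitting `s`. -/
theorem isNodalFibre_of_isPullback {X S W : Scheme.{u}} (p : X ⟶ S) [LocallyOfFinitePresentation p]
    (K : Type u) [Field K] (i : Spec (CommRingCat.of K) ⟶ S) (g : W ⟶ X)
    (q : W ⟶ Spec (CommRingCat.of K)) (h : IsPullback g q p i)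
    (hdim : ∀ Z ∈ irreducibleComponents (W : Type u), topologicalKrullDim Z = 1)
    (hn : letI : W.Over (Spec (CommRingCat.of K)) := ⟨q⟩; AtWorstNodal K W)
    (s : S) (hs : s ∈ Set.range i) :
    (∀ Z ∈ irreducibleComponents (p.fiber s : Type u), topologicalKrullDim Z = 1) ∧
      letI : (p.fiber s).Over (Spec (S.residueField s)) := ⟨p.fiberToSpecResidueField s⟩
      AtWorstNodal (S.residueField s) (p.fiber s) := by
  obtain ⟨y, hy⟩ := hs
  obtain ⟨⟨t, φ⟩, rfl⟩ := (Scheme.SpecToEquivOfField K S).symm.surjective i
  obtain rfl : t = s := by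
    rw [← hy]
    simp [Scheme.SpecToEquivOfField]
  -- the canonical algebra structure
  let _ : Algebra (S.residueField t) K := φ.hom.toAlgebra
  have h' : IsPullback g q p (Spec.map φ ≫ S.fromSpecResidueField t) := h
  have hf : IsPullback (p.fiberι t) (p.fiberToSpecResidueField t) p (S.fromSpecResidueField t) :=
    IsPullback.of_hasPullback p (S.fromSpecResidueField t)
  have hb : IsPullback (hf.lift g (q ≫ Spec.map φ) (by rw [h'.w, Category.assoc])) q
      (p.fiberToSpecResidueField t) (Spec.map φ) := by
    refine IsPullback.of_right (h₁₂ := p.fiberι t) (h₂₂ := S.fromSpecResidueField t) ?_ ?_ hf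
    · rw [hf.lift_fst]
      exact h'
    · rw [hf.lift_snd]
  have hlfp : LocallyOfFinitePresentation (p.fiberToSpecResidueField t) :=
    MorphismProperty.of_isPullback (P := @LocallyOfFinitePresentation) hf inferInstance
  have hlft : LocallyOfFiniteType (p.fiberToSpecResidueField t) := inferInstance
  have hd := @CurvesB.FibreBC.dimOne_of_isPullback _ _ (S.residueField t) K _ _ _ _ _ _ hb hlft hdim
  refine ⟨hd, ?_⟩
  let i1 : (p.fiber t).Over (Spec (CommRingCat.of (S.residueField t))) :=
    ⟨p.fiberToSpecResidueField t⟩
  let i2 : W.Over (Spec (CommRingCat.of K)) := ⟨q⟩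
  exact @CurvesB.NodalDescent.atWorstNodal_of_isPullback (S.residueField t) K _ _ _ _ _ i1 i2 _ hb
    hlfp hd hn

/-- A smooth curve over a field is at worst nodal. -/
theorem atWorstNodal_of_smooth {K : Type u} [Field K] {W : Scheme.{u}}
    (q : W ⟶ Spec (CommRingCat.of K)) [hq : Smooth q] :
    letI : W.Over (Spec (CommRingCat.of K)) := ⟨q⟩; AtWorstNodal K W := by
  intro x _
  refine Or.inl ⟨⊤, trivial, ?_⟩
  change Smooth ((⊤ : W.Opens).ι ≫ q)
  infer_instance

/-- A space that is irreducible of dimension one is of pure dimension one. -/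
theorem forall_dim_eq_one_of_irreducible {T : Type u} [TopologicalSpace T] [IrreducibleSpace T]
    (h : topologicalKrullDim T = 1) :
    ∀ Z ∈ irreducibleComponents T, topologicalKrullDim Z = 1 := by
  intro Z hZ
  rw [irreducibleComponents_eq_singleton, Set.mem_singleton_iff] at hZ
  subst hZ
  rw [IsHomeomorph.topologicalKrullDim_eq _ (Homeomorph.Set.univ T).isHomeomorph, h]

/-- [SSR-P6] A model over a discrete valuation ring of a smooth proper curve, one geometric special
fibre of which is at worst nodal of pure dimension one, is a nodal family. -/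
theorem isNodalFamily_of_geometric (R : Type u) [CommRing R] [IsDomain R]
    [IsDiscreteValuationRing R] (C X : Scheme.{u}) (f : C ⟶ Spec (CommRingCat.of (FractionRing R)))
    (p : X ⟶ Spec (CommRingCat.of R)) (hC : Curve.IsSmoothProperCurve (FractionRing R) C f)
    (hX : Models.IsModel R X p C f) (K : Type u) [Field K] [Algebra (IsLocalRing.ResidueField R) K]
    (W : Scheme.{u}) (q : W ⟶ Spec (CommRingCat.of K)) (g : W ⟶ Models.specialFibre R X p)
    (hW : IsPullback g q (Limits.pullback.snd p _)
      (Spec.map (CommRingCat.ofHom (algebraMap (IsLocalRing.ResidueField R) K))))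
    (hdim : ∀ Z ∈ irreducibleComponents (W : Type u), topologicalKrullDim Z = 1)
    (hn : letI : W.Over (Spec (CommRingCat.of K)) := ⟨q⟩; Curv2.AtWorstNodal K W) :
    Curv2.IsNodalFamily p := by
  obtain ⟨hflat, hft, hqc, c, hc⟩ := hX
  obtain ⟨hCp, hCs, hCi, hCd⟩ := hC
  have hlfp : LocallyOfFinitePresentation p := by
    exact CurvesB.NodeSch2.locallyOfFinitePresentation_of_isLocallyNoetherian p
  refine ⟨hflat, hlfp, fun s => ?_⟩
  by_cases hs : s.asIdeal = ⊥
  · -- the generic fibre
    refine isNodalFibre_of_isPullback p (FractionRing R) _ c f hc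
      (forall_dim_eq_one_of_irreducible hCd) (atWorstNodal_of_smooth f) s ?_
    let x : PrimeSpectrum (FractionRing R) := ⊥
    refine ⟨x, PrimeSpectrum.ext ?_⟩
    rw [hs]
    change Ideal.comap (algebraMap R (FractionRing R)) (⊥ : Ideal (FractionRing R)) = ⊥
    exact Ideal.comap_bot_of_injective _ (IsFractionRing.injective R (FractionRing R))
  · -- the special fibre
    have hR : IsPullback (g ≫ Limits.pullback.fst p _) q p
        (Spec.map (CommRingCat.ofHom (algebraMap (IsLocalRing.ResidueField R) K)) ≫
          Spec.map (CommRingCat.ofHom (algebraMap R (IsLocalRing.ResidueField R)))) :=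
      hW.paste_horiz (IsPullback.of_hasPullback p _)
    refine isNodalFibre_of_isPullback p K _ _ q hR hdim hn s ?_
    let x : PrimeSpectrum K := ⊥
    refine ⟨x, PrimeSpectrum.ext ?_⟩
    change Ideal.comap (algebraMap R (IsLocalRing.ResidueField R))
      (Ideal.comap (algebraMap (IsLocalRing.ResidueField R) K) (⊥ : Ideal K)) = s.asIdeal
    rw [Ideal.comap_bot_of_injective _ (algebraMap (IsLocalRing.ResidueField R) K).injective]
    have h1 : Ideal.comap (algebraMap R (IsLocalRing.ResidueField R)) ⊥ =
        IsLocalRing.maximalIdeal R := by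
      rw [← RingHom.ker_eq_comap_bot]
      exact IsLocalRing.ker_residue
    rw [h1]
    exact (IsLocalRing.eq_maximalIdeal (s.isPrime.isMaximal hs)).symm

end Groth.Agent.Models.H112.NodalFam
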